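import Cfsg.Agent.H497.MG.Abs
import Cfsg.Agent.Solvable.Glauberman
import Cfsg.Agent.BpSpor.MFiveAbs

/-!
# S3509, row M: the coprime form of the isolated type (helper497)

* `TC x` : an involution `z` of `C(x)` such that every element of `C(x)` of order prime to `|x|` commutes with a conjugate of
  `z` in `C(x)`;
* `exists_inv_of_TC`, **`m1'`** : a cover has no member of type `TQ` or `TC`;
* `TC.of_rad` : `C(x) = N C(x, z)`, `N` a `p`-group.
-/

set_option autoImplicit false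

namespace Cfsg.Agent.H497.MG

open MulAction Subgroup Cfsg.Agent.H867.RC Cfsg.Agent.H106.RC Cfsg.Agent.H873.RG

section Types

variable {G : Type*} [Group G]

/-- the coprime type -/
def TC (x : G) : Prop := ∃ z : G, z ≠ 1 ∧ z * z = 1 ∧ z * x = x * z ∧ ∀ g, g * x = x * g →
  ∀ m : ℕ, g ^ m = 1 → m.Coprime (orderOf x) → ∃ k, k * x = x * k ∧ g * (k * z * k⁻¹) = (k * z * k⁻¹) * g

theorem TB.toTC {x : G} (hx1 : x ≠ 1) (hx : TB x) : TC x := by
  obtain ⟨z, hz1, hzz, hzx, H⟩ := hx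
  refine ⟨z, hz1, hzz, hzx, fun g hg m hm hcop => ?_⟩
  rcases H g hg with h | h
  · exact h
  · exfalso
    obtain ⟨s, -, hs⟩ := h x (mem_zpowers x)
    have h3 : (g * x) ^ m = 1 := by rw [← hs, conj_pow, hm, mul_one, mul_inv_cancel]
    rw [(show Commute g x from hg).mul_pow, hm, one_mul] at h3
    have h4 := orderOf_dvd_of_pow_eq_one h3
    have h5 : orderOf x ∣ 1 := by
      have := Nat.dvd_gcd h4 (dvd_refl (orderOf x))
      rwa [hcop] at this
    exact hx1 (orderOf_eq_one_iff.1 (Nat.dvd_one.1 h5))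

theorem TC.congr {x y : G} (h : zpowers x = zpowers y) (hx : TC x) : TC y := by
  obtain ⟨z, hz1, hzz, hzx, H⟩ := hx
  refine ⟨z, hz1, hzz, (comm_iff_of_zpowers h z).1 hzx, fun g hg m hm hcop => ?_⟩
  have ho : orderOf x = orderOf y := by rw [← Nat.card_zpowers, ← Nat.card_zpowers, h]
  obtain ⟨k, hk, h1⟩ := H g ((comm_iff_of_zpowers h g).2 hg) m hm (by rwa [ho])
  exact ⟨k, (comm_iff_of_zpowers h k).1 hk, h1⟩

theorem TC.conj {x : G} (hx : TC x) (k : G) : TC (k * x * k⁻¹) := by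
  obtain ⟨z, hz1, hzz, hzx, H⟩ := hx
  have hcj : ∀ {g : G}, g * (k * x * k⁻¹) = (k * x * k⁻¹) * g → (k⁻¹ * g * k) * x = x * (k⁻¹ * g * k) := by
    intro g hg
    calc (k⁻¹ * g * k) * x = k⁻¹ * (g * (k * x * k⁻¹)) * k := by group
      _ = k⁻¹ * ((k * x * k⁻¹) * g) * k := by rw [hg]
      _ = x * (k⁻¹ * g * k) := by group
  have hcj' : ∀ {g : G}, g * x = x * g → (k * g * k⁻¹) * (k * x * k⁻¹) = (k * x * k⁻¹) * (k * g * k⁻¹) := by
    intro g hg
    calc (k * g * k⁻¹) * (k * x * k⁻¹) = k * (g * x) * k⁻¹ := by group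
      _ = k * (x * g) * k⁻¹ := by rw [hg]
      _ = _ := by group
  have ho : orderOf (k * x * k⁻¹) = orderOf x := MulEquiv.orderOf_eq (MulAut.conj k) x
  refine ⟨k * z * k⁻¹, ?_, ?_, hcj' hzx, fun g hg m hm hcop => ?_⟩
  · intro h
    apply hz1
    have : z = k⁻¹ * (k * z * k⁻¹) * k := by group
    rw [this, h]
    group
  · calc k * z * k⁻¹ * (k * z * k⁻¹) = k * (z * z) * k⁻¹ := by group
      _ = 1 := by rw [hzz]; group
  · rw [ho] at hcop
    have hm' : (k⁻¹ * g * k) ^ m = 1 := by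
      have h1 : (k⁻¹ * g * (k⁻¹)⁻¹) ^ m = 1 := by rw [conj_pow, hm]; group
      rwa [inv_inv] at h1
    obtain ⟨c, hc, h1⟩ := H _ (hcj hg) m hm' hcop
    refine ⟨k * c * k⁻¹, hcj' hc, ?_⟩
    have e : k * c * k⁻¹ * (k * z * k⁻¹) * (k * c * k⁻¹)⁻¹ = k * (c * z * c⁻¹) * k⁻¹ := by group
    rw [e]
    calc g * (k * (c * z * c⁻¹) * k⁻¹) = k * ((k⁻¹ * g * k) * (c * z * c⁻¹)) * k⁻¹ := by group
      _ = k * ((c * z * c⁻¹) * (k⁻¹ * g * k)) * k⁻¹ := by rw [h1]
      _ = _ := by group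

/-- the element commutes with an involution common with `x` -/
theorem TC.common {x : G} (hx : TC x) {g : G} (hg : g * x = x * g) {m : ℕ} (hm : g ^ m = 1)
    (hcop : m.Coprime (orderOf x)) : ∃ t : G, orderOf t = 2 ∧ t * g = g * t ∧ t * x = x * t := by
  obtain ⟨z, hz1, hzz, hzx, H⟩ := hx
  obtain ⟨k, hk, h1⟩ := H g hg m hm hcop
  refine ⟨k * z * k⁻¹, ?_, h1.symm, ?_⟩
  · have := Fact.mk Nat.prime_two
    refine orderOf_eq_prime ?_ ?_
    · rw [pow_two]
      calc k * z * k⁻¹ * (k * z * k⁻¹) = k * (z * z) * k⁻¹ := by group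
        _ = 1 := by rw [hzz]; group
    · intro h
      apply hz1
      have : z = k⁻¹ * (k * z * k⁻¹) * k := by group
      rw [this, h]
      group
  · have hk' : k⁻¹ * x = x * k⁻¹ := by
      calc k⁻¹ * x = k⁻¹ * (x * k) * k⁻¹ := by group
        _ = x * k⁻¹ := by rw [← hk]; group
    calc k * z * k⁻¹ * x = k * z * (k⁻¹ * x) := by group
      _ = k * (z * x) * k⁻¹ := by rw [hk']; group
      _ = (k * x) * z * k⁻¹ := by rw [hzx]; group
      _ = x * (k * z * k⁻¹) := by rw [hk]; group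

open Cfsg.Agent.Solvable in
/-- `D = N C(z)`, `N` a normal subgroup of order prime to that of `g` : `g` commutes with a conjugate of `z` -/
theorem exists_conj_comm {D : Type*} [Group D] [Finite D] {N : Subgroup D} (hN : N.Normal) {z g : D} {m : ℕ}
    (hsup : ∀ g : D, ∃ n ∈ N, ∃ c, c * z = z * c ∧ g = n * c) (hg : g ^ m = 1) (hcop : m.Coprime (Nat.card ↥N)) :
    ∃ k : D, g * (k * z * k⁻¹) = (k * z * k⁻¹) * g := by
  have hcyc : Group.IsSolvable ↥(zpowers g) := by
    have : IsMulCommutative ↥(zpowers g) := inferInstance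
    exact Group.isSolvable_of_comm fun a b => mul_comm' a b
  obtain ⟨k, -, hk⟩ := Glauberman.exists_smul_fixed (zpowers g) N (by rw [normalizer_eq_top]; exact le_top)
    (by
      rw [Nat.card_zpowers]
      exact Nat.Coprime.coprime_dvd_left (orderOf_dvd_of_pow_eq_one hg) hcop)
    (Or.inl hcyc) (X := D ⧸ centralizer ({z} : Set D)) (QuotientGroup.mk 1) (fun a _ => by
      obtain ⟨n, hn, c, hc, rfl⟩ := hsup a
      refine ⟨n, hn, ?_⟩
      change (QuotientGroup.mk (n * c * 1) : D ⧸ centralizer ({z} : Set D)) = QuotientGroup.mk (n * 1)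
      rw [QuotientGroup.eq, mem_centralizer_singleton_iff]
      have e : (n * c * 1)⁻¹ * (n * 1) = c⁻¹ := by group
      rw [e]
      calc c⁻¹ * z = c⁻¹ * (z * c) * c⁻¹ := by group
        _ = z * c⁻¹ := by rw [← hc]; group)
  have h1 : (QuotientGroup.mk (g * (k * 1)) : D ⧸ centralizer ({z} : Set D)) = QuotientGroup.mk (k * 1) :=
    hk g (mem_zpowers g)
  rw [QuotientGroup.eq, mem_centralizer_singleton_iff] at h1
  refine ⟨k, ?_⟩
  have e : (g * (k * 1))⁻¹ * (k * 1) = k⁻¹ * g⁻¹ * k := by group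
  rw [e] at h1
  have h2 : g⁻¹ * (k * z * k⁻¹) = (k * z * k⁻¹) * g⁻¹ := by
    calc g⁻¹ * (k * z * k⁻¹) = k * ((k⁻¹ * g⁻¹ * k) * z) * k⁻¹ := by group
      _ = k * (z * (k⁻¹ * g⁻¹ * k)) * k⁻¹ := by rw [h1]
      _ = _ := by group
  calc g * (k * z * k⁻¹) = g * ((k * z * k⁻¹) * g⁻¹) * g := by group
    _ = g * (g⁻¹ * (k * z * k⁻¹)) * g := by rw [← h2]
    _ = _ := by group

/-- the type `TC` from a normal subgroup of `C(x)` -/
theorem TC.of_sup [Finite G] {x z : G} (hz1 : z ≠ 1) (hzz : z * z = 1) (hzx : z * x = x * z)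
    {N : Subgroup ↥(centralizer ({x} : Set G))} (hN : N.Normal) {p k : ℕ} (hxo : orderOf x = p)
    (hNc : Nat.card ↥N = p ^ k)
    (hsup : ∀ g : ↥(centralizer ({x} : Set G)), ∃ n ∈ N, ∃ c : ↥(centralizer ({x} : Set G)), (c : G) * z = z * c ∧ g = n * c) :
    TC x := by
  refine ⟨z, hz1, hzz, hzx, fun g hg m hm hcop => ?_⟩
  obtain ⟨k', hk'⟩ := exists_conj_comm (D := ↥(centralizer ({x} : Set G))) hN
    (z := ⟨z, mem_centralizer_singleton_iff.2 hzx⟩) (g := ⟨g, mem_centralizer_singleton_iff.2 hg⟩) (m := m)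
    (fun a => by
      obtain ⟨n, hn, c, hc, h⟩ := hsup a
      exact ⟨n, hn, c, Subtype.ext hc, h⟩)
    (Subtype.ext hm) (by
      rw [hNc, ← hxo]
      exact Nat.Coprime.pow_right k hcop)
  exact ⟨k', mem_centralizer_singleton_iff.1 k'.2, congrArg Subtype.val hk'⟩

end Types

section Cover

variable {G Ω : Type} [Group G] [Finite G] [MulAction G Ω]

omit [Finite G] [MulAction G Ω] in
/-- **a member of type `TC`: the family commutes with an involution** -/
theorem exists_inv_of_TC {ι : Type} [Finite ι] {x : ι → G} {r : ι → ℕ} (hx : PF x r) {i : ι} (hi : TC (x i)) :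
    ∃ u, orderOf u = 2 ∧ (∀ j, u * x j = x j * u) ∧ ∀ j, r j = 2 → x j = u := by
  classical
  have := Fintype.ofFinite ι
  by_cases h2 : ∃ j, r j = 2
  · obtain ⟨j, hj⟩ := h2
    have := Fact.mk Nat.prime_two
    refine ⟨x j, orderOf_eq_prime (by rw [← hj]; exact hx.pow j) (hx.ne j), fun k => hx.comm j k, fun k hk => ?_⟩
    rw [hx.inj (hk.trans hj.symm)]
  push Not at h2
  -- the other members
  obtain ⟨g, hg, hgx⟩ := exists_gen (fun j : {j // j ≠ i} => x j) (fun j => r j) (fun j => hx.prime j)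
    (fun a b hab => Subtype.ext (hx.inj hab)) (fun j => hx.pow j) (fun a b => hx.comm a b)
  set N := ∏ j : {j // j ≠ i}, r j with hN
  have hgc : g * x i = x i * g := by
    have h1 : closure (Set.range fun j : {j // j ≠ i} => x j) ≤ centralizer ({x i} : Set G) := by
      rw [closure_le]
      rintro _ ⟨j, rfl⟩
      exact mem_centralizer_singleton_iff.2 (hx.comm j i)
    exact mem_centralizer_singleton_iff.1 (h1 hg)
  have hgN : g ^ N = 1 := by
    have hcm : ∀ a ∈ closure (Set.range fun j : {j // j ≠ i} => x j),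
        ∀ b ∈ closure (Set.range fun j : {j // j ≠ i} => x j), a * b = b * a := by
      intro a ha b hb
      have h1 : closure (Set.range fun j : {j // j ≠ i} => x j) ≤
          centralizer (Set.range fun j : {j // j ≠ i} => x j) := by
        rw [closure_le]
        rintro _ ⟨j, rfl⟩
        rw [SetLike.mem_coe, mem_centralizer_iff]
        rintro _ ⟨k, rfl⟩
        exact hx.comm k j
      have h3 : closure (Set.range fun j : {j // j ≠ i} => x j) ≤
          centralizer ((closure (Set.range fun j : {j // j ≠ i} => x j) : Subgroup G) : Set G) := by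
        rw [closure_le]
        intro c hc
        rw [SetLike.mem_coe, mem_centralizer_iff]
        intro d hd
        exact ((mem_centralizer_iff.1 (h1 hd)) c hc).symm
      exact ((mem_centralizer_iff.1 (h3 ha)) b hb).symm
    refine closure_induction (p := fun a _ => a ^ N = 1) ?_ ?_ ?_ ?_ hg
    · rintro _ ⟨j, rfl⟩
      obtain ⟨M, hM⟩ : r j ∣ N := Finset.dvd_prod_of_mem (fun j : {j // j ≠ i} => r j) (Finset.mem_univ j)
      rw [hM, pow_mul, hx.pow, one_pow]
    · exact one_pow _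
    · intro a b ha hb h1 h3
      rw [(show Commute a b from hcm a ha b hb).mul_pow, h1, h3, one_mul]
    · intro a _ h1
      rw [inv_pow, h1, inv_one]
  have hpi := Fact.mk (hx.prime i)
  have hcop : N.Coprime (orderOf (x i)) := by
    rw [orderOf_eq_prime (hx.pow i) (hx.ne i), hN]
    refine Nat.Coprime.prod_left fun j _ => (Nat.coprime_primes (hx.prime j) (hx.prime i)).2 fun h => ?_
    exact j.2 (hx.inj h)
  obtain ⟨t, ht, htg, htx⟩ := hi.common hgc hgN hcop
  refine ⟨t, ht, fun j => ?_, fun j hj => absurd hj (h2 j)⟩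
  by_cases hj : j = i
  · rw [hj]; exact htx
  · obtain ⟨k, hk⟩ := hgx ⟨j, hj⟩
    have hk : g ^ k = x j := hk
    rw [← hk]
    exact ((show Commute t g from htg).zpow_right k).eq

/-- **M1** : a cover has no member of type `TQ` or `TC` -/
theorem m1' (hE : BoxE G Ω) {ι : Type} [Finite ι] {x : ι → G} {r : ι → ℕ} (hx : PF x r) (hc : Cov Ω x) {i : ι}
    (hi : TQ (x i) ∨ TC (x i)) (hi2 : r i ≠ 2)
    (hRC : ∀ (S : Type) [Group S] [Finite S], NSA S → Nat.card S ≤ Nat.card ↥(centralizer ({x i} : Set G)) → RC S) :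
    False := by
  rcases hi with hi | hi
  · exact m1 hE hx hc (Or.inl hi) hi2 hRC
  · obtain ⟨u, hu, h1, h2⟩ := exists_inv_of_TC hx hi
    exact hE ι x r hx hc u hu h1 h2

end Cover

end Cfsg.Agent.H497.MG
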